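import Mathlib.GroupTheory.PGroup
import Mathlib.GroupTheory.Sylow
import Mathlib.Tactic.Group

/-!
helper38: elementary coprime action facts (a `p`-group acting on a `p'`-group), by fixed point
counting.
-/

set_option autoImplicit false

namespace Cfsg.Agent.H38

variable {G : Type*} [Group G]

/-- A `p`-subgroup `A` normalizing a `p'`-subgroup `E` and stabilizing the coset `d E`
(under conjugation) centralizes some element of `d E`. -/
theorem exists_fixed_in_coset {p : ℕ} [Fact p.Prime] (A E : Subgroup G)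
    (hA : IsPGroup p A) (hE : ¬ p ∣ Nat.card E)
    (hAE : ∀ a ∈ A, ∀ e ∈ E, a * e * a⁻¹ ∈ E) (d : G) (hd : ∀ a ∈ A, d⁻¹ * a * d * a⁻¹ ∈ E) :
    ∃ e ∈ E, ∀ a ∈ A, a * (d * e) * a⁻¹ = d * e := by
  classical
  let T : Set G := {x | d⁻¹ * x ∈ E}
  have hT : ∀ a ∈ A, ∀ x ∈ T, a * x * a⁻¹ ∈ T := by
    intro a ha x hx
    show d⁻¹ * (a * x * a⁻¹) ∈ E
    have : d⁻¹ * (a * x * a⁻¹) = (d⁻¹ * a * d * a⁻¹) * (a * (d⁻¹ * x) * a⁻¹) := by group
    rw [this]; exact E.mul_mem (hd a ha) (hAE a ha _ hx)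
  let _ : MulAction A T :=
    { smul := fun a x => ⟨a * x * a⁻¹, hT a a.2 x x.2⟩
      one_smul := fun x => by
        apply Subtype.ext
        show ((1 : A) : G) * x * ((1 : A) : G)⁻¹ = x
        simp
      mul_smul := fun a b x => by
        apply Subtype.ext
        show ((a * b : A) : G) * x * ((a * b : A) : G)⁻¹ = a * (b * x * (b : G)⁻¹) * (a : G)⁻¹
        simp [mul_assoc] }
  have hcard : Nat.card T = Nat.card E :=
    Nat.card_congr
      { toFun := fun x => ⟨d⁻¹ * x, x.2⟩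
        invFun := fun e => ⟨d * e, by show d⁻¹ * (d * e) ∈ E; simp⟩
        left_inv := fun x => by apply Subtype.ext; simp
        right_inv := fun e => by apply Subtype.ext; simp }
  obtain ⟨x, hx⟩ := hA.nonempty_fixed_point_of_prime_not_dvd_card T (by rw [hcard]; exact hE)
  refine ⟨d⁻¹ * x, x.2, fun a ha => ?_⟩
  have h1 : (⟨a, ha⟩ : A) • x = x := hx ⟨a, ha⟩
  have h2 : a * (x : G) * a⁻¹ = x := congrArg Subtype.val h1
  simpa using h2

/-- An element of `p`-power order in a subgroup of order prime to `p` is trivial. -/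
theorem eq_one_of_pow_prime_pow_of_not_dvd {p : ℕ} [Fact p.Prime] [Finite G] (E : Subgroup G)
    (hE : ¬ p ∣ Nat.card E) {x : G} (hx : x ∈ E) {k : ℕ} (hk : x ^ (p ^ k) = 1) : x = 1 := by
  have h1 : orderOf x ∣ p ^ k := orderOf_dvd_of_pow_eq_one hk
  have h2 : orderOf x ∣ Nat.card E := by
    have := orderOf_dvd_natCard (⟨x, hx⟩ : E)
    rwa [← Subgroup.orderOf_coe] at this
  obtain ⟨j, -, hj⟩ := (Nat.dvd_prime_pow (Fact.out : p.Prime)).mp h1
  rcases Nat.eq_zero_or_pos j with rfl | hjpos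
  · rw [pow_zero] at hj; exact orderOf_eq_one_iff.mp hj
  · exfalso
    apply hE
    rw [hj] at h2
    exact (dvd_pow_self p hjpos.ne').trans h2

/-- A `p`-subgroup and a subgroup of order prime to `p` meet trivially. -/
theorem inf_eq_bot_of_isPGroup_of_not_dvd {p : ℕ} [Fact p.Prime] [Finite G] (H E : Subgroup G)
    (hH : IsPGroup p H) (hE : ¬ p ∣ Nat.card E) : H ⊓ E = ⊥ := by
  rw [eq_bot_iff]
  intro x hx
  obtain ⟨hxH, hxE⟩ := Subgroup.mem_inf.mp hx
  obtain ⟨k, hk⟩ := hH ⟨x, hxH⟩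
  have hk' : x ^ (p ^ k) = 1 := by
    have := congrArg Subtype.val hk
    simpa using this
  rw [Subgroup.mem_bot]
  exact eq_one_of_pow_prime_pow_of_not_dvd E hE hxE hk'

end Cfsg.Agent.H38
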