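import Mathlib
import Cfsg.Prelude.Def_Transfer
import Cfsg.Agent.H53.PRes

set_option autoImplicit false

namespace Cfsg.Agent.H38

open Cfsg

/-- A permutation of `2`-power order `2^m` (`m ≥ 1`) all of whose cycles have full length, on a set
of size `2^m * k` with `k` odd, is odd. -/
theorem sign_eq_neg_one_of_semiregular {α : Type*} [Fintype α] [DecidableEq α] (σ : Equiv.Perm α)
    (m k : ℕ) (hm : 1 ≤ m) (hσ : σ ^ 2 ^ m = 1) (hfree : ∀ a, (σ ^ 2 ^ (m - 1)) a ≠ a)
    (hcard : Fintype.card α = 2 ^ m * k) (hk : Odd k) : Equiv.Perm.sign σ = -1 := by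
  have hall : ∀ n ∈ σ.cycleType, n = 2 ^ m := by
    intro n hn
    have h1 : n ∣ 2 ^ m := (Equiv.Perm.dvd_of_mem_cycleType hn).trans (orderOf_dvd_of_pow_eq_one hσ)
    obtain ⟨j, hj, rfl⟩ := (Nat.dvd_prime_pow Nat.prime_two).mp h1
    by_contra hne
    have hjm : j ≤ m - 1 := by
      have : j ≠ m := fun h => hne (by rw [h])
      omega
    obtain ⟨c, τ, hστ, hdisj, hc, hcard'⟩ := Equiv.Perm.mem_cycleType_iff.mp hn
    obtain ⟨x, hx, -⟩ := id hc
    have hτx : τ x = x := (hdisj x).resolve_left hx
    have hcn : c ^ 2 ^ j = 1 := by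
      rw [← hcard', ← hc.orderOf]; exact pow_orderOf_eq_one c
    have h2 : (σ ^ 2 ^ j) x = x := by
      rw [hστ, hdisj.commute.mul_pow, hcn, one_mul]
      exact Equiv.Perm.pow_apply_eq_self_of_apply_eq_self hτx _
    have h3 : (σ ^ 2 ^ (m - 1)) x = x := by
      have : (2 : ℕ) ^ (m - 1) = 2 ^ j * 2 ^ (m - 1 - j) := by
        rw [← pow_add]; congr 1; omega
      rw [this, pow_mul]
      exact Equiv.Perm.pow_apply_eq_self_of_apply_eq_self h2 _
    exact hfree x h3
  have hrep : σ.cycleType = Multiset.replicate (Multiset.card σ.cycleType) (2 ^ m) :=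
    Multiset.eq_replicate_card.mpr hall
  have hsupp : σ.support = Finset.univ := by
    ext a
    simp only [Equiv.Perm.mem_support, Finset.mem_univ, iff_true]
    intro ha
    exact hfree a (Equiv.Perm.pow_apply_eq_self_of_apply_eq_self ha _)
  have hsum : Multiset.card σ.cycleType * 2 ^ m = 2 ^ m * k := by
    have h := Equiv.Perm.sum_cycleType σ
    rw [hsupp, Finset.card_univ, hcard, hrep, Multiset.sum_replicate, smul_eq_mul] at h
    simpa using h
  have hcardk : Multiset.card σ.cycleType = k := by
    have hpos : 0 < 2 ^ m := by positivity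
    rw [mul_comm] at hsum
    exact Nat.eq_of_mul_eq_mul_left hpos hsum
  have h2m : Even (2 ^ m) := by
    obtain ⟨m', rfl⟩ : ∃ m', m = m' + 1 := ⟨m - 1, by omega⟩
    exact ⟨2 ^ m', by ring⟩
  have hodd : Odd (σ.cycleType.sum + Multiset.card σ.cycleType) := by
    have h := Equiv.Perm.sum_cycleType σ
    rw [hsupp, Finset.card_univ, hcard] at h
    rw [h, hcardk]
    exact Even.add_odd (h2m.mul_right k) hk
  rw [Equiv.Perm.sign_of_cycleType, hodd.neg_one_pow]

/-- If `x` has `2`-power order `2^m` and acts semiregularly on the cosets of `H`, whose number is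
`2^m * k` with `k` odd, then `x ∉ O^2(G)`. -/
theorem not_mem_pResidual_of_semiregular {G : Type*} [Group G] [Finite G] (H : Subgroup G) (x : G)
    (m k : ℕ) (hm : 1 ≤ m) (hx : x ^ 2 ^ m = 1) (hfree : ∀ g : G, g⁻¹ * x ^ 2 ^ (m - 1) * g ∉ H)
    (hidx : H.index = 2 ^ m * k) (hk : Odd k) : x ∉ pResidual 2 G := by
  classical
  haveI : Fintype (G ⧸ H) := Fintype.ofFinite _
  intro hxK
  let f : G →* ℤˣ := Equiv.Perm.sign.comp (MulAction.toPermHom G (G ⧸ H))
  have hP : IsPGroup 2 ℤˣ := by
    intro u
    exact ⟨1, by rw [pow_one]; exact Int.units_sq u⟩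
  have hker : x ∈ f.ker := Cfsg.Agent.H53.pResidual_le_ker_of_isPGroup f hP hxK
  have hσ : (MulAction.toPermHom G (G ⧸ H) x) ^ 2 ^ m = 1 := by
    rw [← map_pow, hx, map_one]
  have hfree' : ∀ a : G ⧸ H, ((MulAction.toPermHom G (G ⧸ H) x) ^ 2 ^ (m - 1)) a ≠ a := by
    intro a
    induction a using QuotientGroup.induction_on with
    | H g =>
      rw [← map_pow]
      intro h
      have h' : (x ^ 2 ^ (m - 1)) • (g : G ⧸ H) = (g : G ⧸ H) := h
      rw [MulAction.Quotient.smul_mk, eq_comm, QuotientGroup.eq, smul_eq_mul, ← mul_assoc] at h'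
      exact hfree g h'
  have hcard : Fintype.card (G ⧸ H) = 2 ^ m * k := by
    rw [← Nat.card_eq_fintype_card, ← hidx]; rfl
  have hs := sign_eq_neg_one_of_semiregular (MulAction.toPermHom G (G ⧸ H) x) m k hm hσ hfree'
    hcard hk
  have h1 : f x = 1 := hker
  have h2 : f x = -1 := hs
  rw [h1] at h2
  exact absurd h2 (by decide)

/-- In a dihedral group of order at least `4`, every element outside a cyclic subgroup of index
`2` is an involution. -/
theorem dihedral_orderOf_eq_two_of_not_mem {n : ℕ} (hn : 2 ≤ n) (C : Subgroup (DihedralGroup n))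
    (hC : IsCyclic C) (hidx : C.index = 2) (x : DihedralGroup n) (hx : x ∉ C) : orderOf x = 2 := by
  haveI : NeZero n := ⟨by omega⟩
  cases x with
  | sr i => exact DihedralGroup.orderOf_sr i
  | r i =>
    have hcardC : Nat.card C = n := by
      have h := C.card_mul_index
      rw [hidx, DihedralGroup.nat_card] at h
      omega
    obtain ⟨γ, hγ⟩ := hC.exists_generator
    have hord : orderOf (γ : DihedralGroup n) = n := by
      rw [Subgroup.orderOf_coe, orderOf_eq_card_of_forall_mem_zpowers hγ, hcardC]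
    rcases hγv : (γ : DihedralGroup n) with j | j
    · exfalso
      rw [hγv, DihedralGroup.orderOf_r] at hord
      have hgcd : Nat.gcd n j.val = 1 := by
        rcases Nat.div_eq_self.mp hord with h | h
        · omega
        · exact h
      have hcop : Nat.Coprime j.val n := by rw [Nat.Coprime, Nat.gcd_comm]; exact hgcd
      have hinv : j * j⁻¹ = 1 := by
        have := ZMod.coe_mul_inv_eq_one (n := n) j.val hcop
        rwa [ZMod.natCast_zmod_val] at this
      have hpow : ∀ k : ℕ, (DihedralGroup.r j) ^ k = DihedralGroup.r ((k : ZMod n) * j) := by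
        intro k
        induction k with
        | zero => simp
        | succ k ih => rw [pow_succ, ih, DihedralGroup.r_mul_r]; congr 1; push_cast; ring
      have hri : DihedralGroup.r i = (DihedralGroup.r j) ^ (i * j⁻¹).val := by
        rw [hpow, ZMod.natCast_zmod_val, mul_assoc, mul_comm j⁻¹ j, hinv, mul_one]
      apply hx
      rw [hri, ← hγv]
      exact C.pow_mem γ.2 _
    · rw [hγv, DihedralGroup.orderOf_sr] at hord
      subst hord
      have hi : i = 0 ∨ i = 1 := by
        fin_cases i
        · left; rfl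
        · right; rfl
      rcases hi with rfl | rfl
      · exfalso; apply hx
        have : (DihedralGroup.r 0 : DihedralGroup 2) = 1 := rfl
        rw [this]; exact C.one_mem
      · exact DihedralGroup.orderOf_r_one

end Cfsg.Agent.H38
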