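import Mathlib
import Cfsg.Agent.H17.TgDefs

/-!
# TG-CW5 (helper38, backup piece for helper17's S1904)

`|Z(X)| = 4`, `Z(X)` of exponent 2, all squares central, `|X| ≥ 128`: there is a non-central
involution.  Proof: `X / Z` is an `𝔽₂`-space of dimension `≥ 5`; the squaring map is given by two
quadratic polynomials in five variables; Chevalley–Warning.
-/

set_option autoImplicit false

namespace Cfsg.Agent.H38.Tg

open Cfsg MvPolynomial
open scoped IsMulCommutative

universe u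

section
variable {X : Type u} [Group X]

/-- commutators are central when all squares are -/
theorem cw_comm_mem (hsq : ∀ x : X, x ^ 2 ∈ Subgroup.center X) (x y : X) :
    x * y * x⁻¹ * y⁻¹ ∈ Subgroup.center X := by
  have h1 := hsq (x * y)
  have h2 := hsq x
  have h3 := hsq y
  have hc : ∀ g : X, g * (x ^ 2)⁻¹ = (x ^ 2)⁻¹ * g := fun g =>
    (Subgroup.mem_center_iff.mp ((Subgroup.center X).inv_mem h2)) g
  have e : x * y * x⁻¹ * y⁻¹ = (x * y) ^ 2 * (x ^ 2)⁻¹ * (y ^ 2)⁻¹ := by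
    calc x * y * x⁻¹ * y⁻¹ = x * y * x * ((x ^ 2)⁻¹ * y) * (y ^ 2)⁻¹ := by group
      _ = x * y * x * (y * (x ^ 2)⁻¹) * (y ^ 2)⁻¹ := by rw [hc y]
      _ = (x * y) ^ 2 * (x ^ 2)⁻¹ * (y ^ 2)⁻¹ := by rw [pow_two (x * y)]; group
  rw [e]
  exact (Subgroup.center X).mul_mem ((Subgroup.center X).mul_mem h1
    ((Subgroup.center X).inv_mem h2)) ((Subgroup.center X).inv_mem h3)

/-- squaring into the centre -/
def cwSq (hsq : ∀ x : X, x ^ 2 ∈ Subgroup.center X) (x : X) : Subgroup.center X :=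
  ⟨x ^ 2, hsq x⟩

/-- the commutator into the centre -/
def cwCm (hsq : ∀ x : X, x ^ 2 ∈ Subgroup.center X) (u v : X) : Subgroup.center X :=
  ⟨u * v * u⁻¹ * v⁻¹, cw_comm_mem hsq u v⟩

theorem cwSq_mul (hsq : ∀ x : X, x ^ 2 ∈ Subgroup.center X) (u v : X) :
    cwSq hsq (u * v) = cwCm hsq v u * cwSq hsq u * cwSq hsq v := by
  apply Subtype.ext
  show (u * v) ^ 2 = v * u * v⁻¹ * u⁻¹ * u ^ 2 * v ^ 2
  have hc : ∀ g : X, g * (v * u * v⁻¹ * u⁻¹) = (v * u * v⁻¹ * u⁻¹) * g := fun g =>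
    (Subgroup.mem_center_iff.mp (cw_comm_mem hsq v u)) g
  calc (u * v) ^ 2 = u * (v * u * v⁻¹ * u⁻¹) * u * v ^ 2 := by rw [pow_two (u * v)]; group
    _ = (v * u * v⁻¹ * u⁻¹) * u * u * v ^ 2 := by rw [hc u]
    _ = v * u * v⁻¹ * u⁻¹ * u ^ 2 * v ^ 2 := by group

theorem cwCm_mul (hsq : ∀ x : X, x ^ 2 ∈ Subgroup.center X) (u₁ u₂ v : X) :
    cwCm hsq (u₁ * u₂) v = cwCm hsq u₁ v * cwCm hsq u₂ v := by
  apply Subtype.ext
  show u₁ * u₂ * v * (u₁ * u₂)⁻¹ * v⁻¹ = u₁ * v * u₁⁻¹ * v⁻¹ * (u₂ * v * u₂⁻¹ * v⁻¹)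
  have hc : ∀ g : X, g * (u₂ * v * u₂⁻¹ * v⁻¹) = (u₂ * v * u₂⁻¹ * v⁻¹) * g := fun g =>
    (Subgroup.mem_center_iff.mp (cw_comm_mem hsq u₂ v)) g
  calc u₁ * u₂ * v * (u₁ * u₂)⁻¹ * v⁻¹
      = u₁ * (u₂ * v * u₂⁻¹ * v⁻¹) * v * u₁⁻¹ * v⁻¹ := by group
    _ = (u₂ * v * u₂⁻¹ * v⁻¹) * u₁ * v * u₁⁻¹ * v⁻¹ := by rw [hc u₁]
    _ = (u₂ * v * u₂⁻¹ * v⁻¹) * (u₁ * v * u₁⁻¹ * v⁻¹) := by group
    _ = u₁ * v * u₁⁻¹ * v⁻¹ * (u₂ * v * u₂⁻¹ * v⁻¹) := (hc _).symm

theorem cwSq_one (hsq : ∀ x : X, x ^ 2 ∈ Subgroup.center X) : cwSq hsq 1 = 1 := by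
  apply Subtype.ext
  show (1 : X) ^ 2 = 1
  simp

theorem cwCm_one_left (hsq : ∀ x : X, x ^ 2 ∈ Subgroup.center X) (v : X) :
    cwCm hsq 1 v = 1 := by
  apply Subtype.ext
  show (1 : X) * v * 1⁻¹ * v⁻¹ = 1
  simp

theorem cwCm_one_right (hsq : ∀ x : X, x ^ 2 ∈ Subgroup.center X) (u : X) :
    cwCm hsq u 1 = 1 := by
  apply Subtype.ext
  show u * 1 * u⁻¹ * 1⁻¹ = 1
  simp

/-- the square of a product of five elements -/
theorem cwSq_five (hsq : ∀ x : X, x ^ 2 ∈ Subgroup.center X) (y0 y1 y2 y3 y4 : X) :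
    cwSq hsq (y0 * (y1 * (y2 * (y3 * y4)))) =
      cwSq hsq y0 * cwSq hsq y1 * cwSq hsq y2 * cwSq hsq y3 * cwSq hsq y4 *
        (cwCm hsq y1 y0 * cwCm hsq y2 y0 * cwCm hsq y3 y0 * cwCm hsq y4 y0) *
        (cwCm hsq y2 y1 * cwCm hsq y3 y1 * cwCm hsq y4 y1) *
        (cwCm hsq y3 y2 * cwCm hsq y4 y2) * cwCm hsq y4 y3 := by
  simp only [cwSq_mul, cwCm_mul]
  ac_rfl

/-- `x ^ c.val` for `c : ZMod 2`, squared -/
theorem cwSq_pow (hsq : ∀ x : X, x ^ 2 ∈ Subgroup.center X) (x : X) (c : ZMod 2) :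
    cwSq hsq (x ^ c.val) = cwSq hsq x ^ c.val := by
  have h01 : ∀ c : ZMod 2, c = 0 ∨ c = 1 := by decide
  rcases h01 c with rfl | rfl
  · simp [cwSq_one]
  · have : (1 : ZMod 2).val = 1 := rfl
    simp [this]

theorem cwCm_pow (hsq : ∀ x : X, x ^ 2 ∈ Subgroup.center X) (x y : X) (c d : ZMod 2) :
    cwCm hsq (x ^ c.val) (y ^ d.val) = cwCm hsq x y ^ (c * d).val := by
  have h01 : ∀ c : ZMod 2, c = 0 ∨ c = 1 := by decide
  have h1 : (1 : ZMod 2).val = 1 := rfl
  rcases h01 c with rfl | rfl <;> rcases h01 d with rfl | rfl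
  · simp [cwCm_one_left]
  · simp [cwCm_one_left]
  · simp [cwCm_one_right]
  · simp [h1]

end

/-- TG-CW5 -/
theorem cw5 : Cfsg.Agent.H17.Tg.StCW5.{u} := by
  intro X _ _ hZ4 hZ2 hsq h128
  classical
  -- `W = Additive Z(X)` as an `𝔽₂`-space of dimension 2
  letI mW : Module (ZMod 2) (Additive (Subgroup.center X)) :=
    AddCommGroup.zmodModule (n := 2) (by
      intro w
      have h : (Additive.toMul w) ^ 2 = 1 := Subtype.ext (hZ2 _ (Additive.toMul w).2)
      rw [two_nsmul]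
      show Additive.ofMul (Additive.toMul w * Additive.toMul w) = Additive.ofMul 1
      rw [← pow_two, h])
  have hcW : Nat.card (Additive (Subgroup.center X)) = 4 := hZ4
  have hfrW : Module.finrank (ZMod 2) (Additive (Subgroup.center X)) = 2 := by
    have h := Module.natCard_eq_pow_finrank (K := ZMod 2) (V := Additive (Subgroup.center X))
    rw [hcW, Nat.card_zmod] at h
    exact Nat.pow_right_injective (le_refl 2) (h.symm.trans (by norm_num))
  let e : Additive (Subgroup.center X) ≃ₗ[ZMod 2] (Fin 2 → ZMod 2) :=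
    LinearEquiv.ofFinrankEq _ _ (by rw [hfrW, Module.finrank_fin_fun])
  -- `V = Additive (X / Z(X))` as an `𝔽₂`-space of dimension `≥ 5`
  have hQsq : ∀ q : X ⧸ Subgroup.center X, q * q = 1 := by
    intro q
    induction q using QuotientGroup.induction_on with
    | H x =>
      rw [← QuotientGroup.mk_mul, QuotientGroup.eq_one_iff, ← pow_two]
      exact hsq x
  letI cQ : CommGroup (X ⧸ Subgroup.center X) :=
    { (inferInstance : Group (X ⧸ Subgroup.center X)) with
      mul_comm := by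
        intro a b
        have h1 := hQsq (a * b)
        have h2 := hQsq a
        have h3 := hQsq b
        calc a * b = a * (a * b * (a * b)) * b := by rw [h1, mul_one]
          _ = (a * a) * (b * a) * (b * b) := by group
          _ = b * a := by rw [h2, h3, one_mul, mul_one] }
  letI mV : Module (ZMod 2) (Additive (X ⧸ Subgroup.center X)) :=
    AddCommGroup.zmodModule (n := 2) (by
      intro w
      rw [two_nsmul]
      show Additive.ofMul (Additive.toMul w * Additive.toMul w) = Additive.ofMul 1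
      rw [hQsq])
  have hcV : 32 ≤ Nat.card (Additive (X ⧸ Subgroup.center X)) := by
    have h := Subgroup.card_eq_card_quotient_mul_card_subgroup (Subgroup.center X)
    rw [hZ4] at h
    show 32 ≤ Nat.card (X ⧸ Subgroup.center X)
    omega
  have hfrV : 5 ≤ Module.finrank (ZMod 2) (Additive (X ⧸ Subgroup.center X)) := by
    have h := Module.natCard_eq_pow_finrank (K := ZMod 2)
      (V := Additive (X ⧸ Subgroup.center X))
    rw [Nat.card_zmod] at h
    by_contra hlt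
    have h4 : Module.finrank (ZMod 2) (Additive (X ⧸ Subgroup.center X)) ≤ 4 := by omega
    have := Nat.pow_le_pow_right (show 0 < 2 by norm_num) h4
    omega
  obtain ⟨v, hv⟩ := exists_linearIndependent_of_le_finrank hfrV
  -- representatives
  let x : Fin 5 → X := fun i => Quotient.out (Additive.toMul (v i))
  have hx : ∀ i, Additive.ofMul (QuotientGroup.mk (x i) : X ⧸ Subgroup.center X) = v i := by
    intro i
    show Additive.ofMul (QuotientGroup.mk (Quotient.out (Additive.toMul (v i)))) = v i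
    rw [QuotientGroup.out_eq']
    rfl
  let t : (Fin 5 → ZMod 2) → X := fun a =>
    x 0 ^ (a 0).val * (x 1 ^ (a 1).val * (x 2 ^ (a 2).val * (x 3 ^ (a 3).val * x 4 ^ (a 4).val)))
  -- Claim A: `t a` is not central for `a ≠ 0`
  have hA : ∀ a : Fin 5 → ZMod 2, a ≠ 0 → t a ∉ Subgroup.center X := by
    intro a ha hmem
    apply ha
    have h1 : (QuotientGroup.mk (t a) : X ⧸ Subgroup.center X) = 1 :=
      (QuotientGroup.eq_one_iff _).mpr hmem
    have h2 : ∑ i, a i • v i = 0 := by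
      have hsm : ∀ i, a i • v i = (a i).val • v i := by
        intro i
        rw [← Nat.cast_smul_eq_nsmul (ZMod 2), ZMod.natCast_zmod_val]
      have h3 : Additive.ofMul (QuotientGroup.mk (t a) : X ⧸ Subgroup.center X) =
          (a 0).val • v 0 + ((a 1).val • v 1 + ((a 2).val • v 2 + ((a 3).val • v 3 +
            (a 4).val • v 4))) := by
        show Additive.ofMul (QuotientGroup.mk (x 0 ^ (a 0).val * (x 1 ^ (a 1).val *
          (x 2 ^ (a 2).val * (x 3 ^ (a 3).val * x 4 ^ (a 4).val)))) : X ⧸ Subgroup.center X) = _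
        simp only [QuotientGroup.mk_mul, QuotientGroup.mk_pow, ofMul_mul, ofMul_pow, hx]
      rw [Fin.sum_univ_five]
      simp only [hsm]
      rw [h1] at h3
      have h4 : (0 : Additive (X ⧸ Subgroup.center X)) = (a 0).val • v 0 + ((a 1).val • v 1 +
          ((a 2).val • v 2 + ((a 3).val • v 3 + (a 4).val • v 4))) := h3
      rw [h4]
      abel
    funext i
    exact (Fintype.linearIndependent_iff.mp hv) a h2 i
  -- Claim B: the square of `t a` in coordinates
  let s : Fin 5 → Additive (Subgroup.center X) := fun i => Additive.ofMul (cwSq hsq (x i))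
  let c : Fin 5 → Fin 5 → Additive (Subgroup.center X) :=
    fun j i => Additive.ofMul (cwCm hsq (x j) (x i))
  have hsmW : ∀ (d : ZMod 2) (w : Additive (Subgroup.center X)), d.val • w = d • w := by
    intro d w
    rw [← Nat.cast_smul_eq_nsmul (ZMod 2), ZMod.natCast_zmod_val]
  have hB : ∀ a : Fin 5 → ZMod 2, Additive.ofMul (cwSq hsq (t a)) =
      a 0 • s 0 + a 1 • s 1 + a 2 • s 2 + a 3 • s 3 + a 4 • s 4 +
        ((a 1 * a 0) • c 1 0 + (a 2 * a 0) • c 2 0 + (a 3 * a 0) • c 3 0 + (a 4 * a 0) • c 4 0) +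
        ((a 2 * a 1) • c 2 1 + (a 3 * a 1) • c 3 1 + (a 4 * a 1) • c 4 1) +
        ((a 3 * a 2) • c 3 2 + (a 4 * a 2) • c 4 2) + (a 4 * a 3) • c 4 3 := by
    intro a
    show Additive.ofMul (cwSq hsq (x 0 ^ (a 0).val * (x 1 ^ (a 1).val *
          (x 2 ^ (a 2).val * (x 3 ^ (a 3).val * x 4 ^ (a 4).val))))) = _
    rw [cwSq_five]
    simp only [cwSq_pow, cwCm_pow, ofMul_mul, ofMul_pow, hsmW]
    rfl
  let f : Fin 2 → MvPolynomial (Fin 5) (ZMod 2) := fun k =>
    ∑ i, C (e (s i) k) * MvPolynomial.X i +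
      ∑ j, ∑ i, if i < j then C (e (c j i) k) * (MvPolynomial.X j * MvPolynomial.X i) else 0
  have hev : ∀ (a : Fin 5 → ZMod 2) (k : Fin 2),
      eval a (f k) = e (Additive.ofMul (cwSq hsq (t a))) k := by
    intro a k
    rw [hB a]
    simp only [map_add, map_smul, Pi.add_apply, Pi.smul_apply, smul_eq_mul]
    simp [f, Fin.sum_univ_five]
    ring
  have hdeg : ∀ k : Fin 2, (f k).totalDegree ≤ 2 := by
    intro k
    refine (totalDegree_add _ _).trans (max_le ?_ ?_)
    · apply totalDegree_finsetSum_le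
      intro i _
      refine (totalDegree_mul _ _).trans ?_
      rw [totalDegree_C, totalDegree_X]
      norm_num
    · apply totalDegree_finsetSum_le
      intro j _
      apply totalDegree_finsetSum_le
      intro i _
      split_ifs
      · refine (totalDegree_mul _ _).trans ?_
        rw [totalDegree_C, zero_add]
        refine (totalDegree_mul _ _).trans ?_
        rw [totalDegree_X, totalDegree_X]
      · simp
  have hcw := char_dvd_card_solutions_of_add_lt (p := 2) (f₁ := f 0) (f₂ := f 1) (by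
    have h0 := hdeg 0
    have h1 := hdeg 1
    rw [Fintype.card_fin]
    omega)
  have ht0 : t 0 = 1 := by simp [t]
  have h0 : eval (0 : Fin 5 → ZMod 2) (f 0) = 0 ∧ eval (0 : Fin 5 → ZMod 2) (f 1) = 0 := by
    have h00 : ∀ k : Fin 2, eval (0 : Fin 5 → ZMod 2) (f k) = 0 := by
      intro k
      rw [hev, ht0, cwSq_one, ofMul_one, map_zero]
      rfl
    exact ⟨h00 0, h00 1⟩
  obtain ⟨a, ha0, ha⟩ : ∃ a : Fin 5 → ZMod 2, a ≠ 0 ∧ (eval a (f 0) = 0 ∧ eval a (f 1) = 0) := by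
    by_contra hno'
    have hno : ∀ a : Fin 5 → ZMod 2, a ≠ 0 → eval a (f 0) = 0 → eval a (f 1) ≠ 0 :=
      fun a h1 h2 h3 => hno' ⟨a, h1, h2, h3⟩
    have hone : Fintype.card {a : Fin 5 → ZMod 2 // eval a (f 0) = 0 ∧ eval a (f 1) = 0} = 1 := by
      rw [Fintype.card_eq_one_iff]
      refine ⟨⟨0, h0⟩, ?_⟩
      rintro ⟨a, ha⟩
      apply Subtype.ext
      by_contra hne
      have := hno a hne ha.1
      exact this ha.2
    rw [hone] at hcw
    omega
  refine ⟨t a, hA a ha0, ?_⟩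
  have hz : e (Additive.ofMul (cwSq hsq (t a))) = 0 := by
    funext k
    rw [← hev a k]
    fin_cases k
    · exact ha.1
    · exact ha.2
  have hz2 : Additive.ofMul (cwSq hsq (t a)) = 0 := e.map_eq_zero_iff.mp hz
  have hz3 : cwSq hsq (t a) = 1 := hz2
  exact congrArg Subtype.val hz3

example : Cfsg.Agent.H17.Tg.StCW5.{u} := cw5

end Cfsg.Agent.H38.Tg

#print axioms Cfsg.Agent.H38.Tg.cw5
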